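import Cfsg.Agent.H132.IFG.Main
import Cfsg.Agent.Cit.HexG2
import Cfsg.Agent.S1059

/-!
# S5719, cell `g2`, `q` odd: instance `G₂(q)`
-/

set_option autoImplicit false
set_option linter.unusedSectionVars false

namespace Cfsg.Agent.H132.IFG

open Subgroup Cfsg Cfsg.Lie Cfsg.Agent.H215.IFM Cfsg.Agent.H209.Fxy
open Cfsg.Agent.Cit.HexBase Cfsg.Agent.Lib.SL2Mat

section hex

variable {E : Type*} [Field E] [Fintype E] {L : Type*} [Group L] [Finite L] (c : HexGrp (RingEquiv.refl E) L)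

include c in
theorem not_comm (h2 : (2 : E) ≠ 0) : ∃ a b : L, a * b ≠ b * a := by
  by_contra hcon
  push Not at hcon
  exact wm_not_central (K := E) fun x => c.pb_inj h2 (by rw [map_mul, map_mul, hcon])

theorem index_of_card (hcz : Nat.card (centralizer ({c.z} : Set L)) =
      Nat.card (SL2 E) * Nat.card (SL2 ↥(fx (RingEquiv.refl E))))
    (hL : Nat.card L = Fintype.card E ^ 6 * (Fintype.card E ^ 2 - 1) * (Fintype.card E ^ 6 - 1)) :
    (centralizer ({c.z} : Set L)).index =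
      Fintype.card E ^ 4 * (Fintype.card E ^ 4 + Fintype.card E ^ 2 + 1) := by
  classical
  have : Fintype ↥(fx (RingEquiv.refl E)) := Fintype.ofFinite _
  have h1 := (centralizer ({c.z} : Set L)).card_mul_index
  rw [hcz, card_sl2, card_sl2, card_fx, hL] at h1
  have hq : 2 ≤ Fintype.card E := Fintype.one_lt_card
  generalize (centralizer ({c.z} : Set L)).index = n at h1
  generalize Fintype.card E = q at *
  have h2 : 4 ≤ q ^ 2 := by nlinarith
  obtain ⟨a, ha⟩ : ∃ a, q ^ 2 = a + 1 := ⟨q ^ 2 - 1, by omega⟩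
  have e6 : q ^ 6 - 1 = a * (q ^ 4 + q ^ 2 + 1) := by
    have h3 : q ^ 6 = (q ^ 2) ^ 3 := by ring
    have h4 : q ^ 4 = (q ^ 2) ^ 2 := by ring
    rw [h3, h4, ha]
    have : (a + 1) ^ 3 = a * ((a + 1) ^ 2 + (a + 1) + 1) + 1 := by ring
    omega
  have e2 : q ^ 2 - 1 = a := by omega
  rw [e6, e2] at h1
  have ha0 : 0 < a := by omega
  have hq0 : 0 < q := by omega
  have h5 : 0 < q * a * (q * a) := by positivity
  refine Nat.eq_of_mul_eq_mul_left h5 ?_
  rw [h1]
  ring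

end hex

/-- **`G₂(q)`, `q ≥ 5` odd**, modulo the order of `C(z)`, step C and subgroups of `SL₂(q)` -/
theorem killE_g2_of (F : Type) [Field F] [Fintype F] (h5 : 5 ≤ Fintype.card F) (hodd : Odd (Fintype.card F))
    {p : ℕ} [Fact p.Prime] [CharP F p] (hs : IsSimpleGroup (chevG2.group F))
    (hcz : ∀ h2 : (2 : F) ≠ 0, Nat.card (centralizer ({(Cit.HexG2.g2 F h2).z} : Set ↥(chevG2.group F))) =
      Nat.card (SL2 F) * Nat.card (SL2 ↥(fx (RingEquiv.refl F))))
    (hO : OddSL F p) [Fintype ↥(fx (RingEquiv.refl F))] (hO' : OddSL ↥(fx (RingEquiv.refl F)) p)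
    (hC : ∀ h2 : (2 : F) ≠ 0, StepC (Cit.HexG2.g2 F h2)) : KillE (chevG2.group F) := by
  have h2 : (2 : F) ≠ 0 := H215.IFM.two_ne hodd
  have hL : Nat.card ↥(chevG2.group F) =
      Fintype.card F ^ 6 * (Fintype.card F ^ 2 - 1) * (Fintype.card F ^ 6 - 1) := Cfsg.Agent.S1059.result rfl
  exact killE_hex (Cit.HexG2.g2 F h2) (not_comm (Cit.HexG2.g2 F h2) h2) h5 hodd (p := p) (hcz h2)
    (index_of_card _ (hcz h2) hL) (fun A Γ h hne => IF.two_of_op h2 p h hne) hO hO' (hC h2)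

end Cfsg.Agent.H132.IFG
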