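import Cfsg.Agent.H132.IFG.Final0
import Cfsg.Agent.H625.IF.Cen
import Cfsg.Agent.H917.IFG.OddSL

/-!
# S5719, cell `g2`, `q` odd: instance `G₂(q)`, modulo step C
-/

set_option autoImplicit false
set_option linter.unusedSectionVars false

namespace Cfsg.Agent.H132.IFG

open Subgroup Cfsg Cfsg.Lie Cfsg.Agent.H209.Fxy
open Cfsg.Agent.Cit.HexBase Cfsg.Agent.Lib.SL2Mat

theorem oddSL (K : Type*) [Field K] [Fintype K] (p : ℕ) [Fact p.Prime] [CharP K p] (h2 : (2 : K) ≠ 0) : OddSL K p := by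
  intro Y hY hw hbig
  obtain ⟨h1, h3, -⟩ := H917.IFG.odd_sl (p := p) h2 Y hY hw hbig
  have hq : 1 < Fintype.card K := Fintype.one_lt_card
  have : 0 < Fintype.card K * (Fintype.card K - 1) := by
    have : 0 < Fintype.card K - 1 := by omega
    positivity
  exact ⟨Nat.le_of_dvd this h1, h3⟩

/-- **`G₂(q)`, `q ≥ 5` odd**, modulo step C -/
theorem killE_g2_of_stepC (F : Type) [Field F] [Fintype F] (h5 : 5 ≤ Fintype.card F) (hodd : Odd (Fintype.card F))
    (hs : IsSimpleGroup (chevG2.group F))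
    (hC : ∀ h2 : (2 : F) ≠ 0, StepC (Cit.HexG2.g2 F h2)) : KillE (chevG2.group F) := by
  classical
  have h2 : (2 : F) ≠ 0 := H215.IFM.two_ne hodd
  obtain ⟨p, hp⟩ := CharP.exists F
  have hpp : Fact p.Prime := ⟨CharP.char_is_prime F p⟩
  have : Fintype ↥(fx (RingEquiv.refl F)) := Fintype.ofFinite _
  have hch : CharP ↥(fx (RingEquiv.refl F)) p :=
    charP_of_injective_ringHom (f := (fxE (E := F)).symm.toRingHom) (fxE (E := F)).symm.injective p
  exact killE_g2_of F h5 hodd (p := p) hs (fun h2 => H625.IFx.card_CZ _ h2) (oddSL F p h2)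
    (oddSL _ p fun h => h2 (congrArg Subtype.val h)) hC

end Cfsg.Agent.H132.IFG
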