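import Cfsg.Agent.H132.IFG.RankOne
import Cfsg.Agent.H132.IF.ParabG2
import Cfsg.Agent.H209.IF.Kill

/-!
# S5719, cell `g2`, `q` odd: assembly over the frame `HexGrp`
-/

set_option autoImplicit false
set_option linter.unusedSectionVars false

namespace Cfsg.Agent.H132.IFG

open Subgroup Cfsg Cfsg.Agent.H215.IFM Cfsg.Agent.H209.Fxy
open Cfsg.Agent.Cit.HexBase Cfsg.Agent.Lib.SL2Mat

/-! ### an involution isolated in `A` -/

theorem sylow_uniq_top {G : Type*} [Group G] [Finite G] {z : G} (hzo : orderOf z = 2)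
    (h1 : ∀ s : G, s * z = z * s → orderOf s = 2 → s = z) {s t : G} (hs : orderOf s = 2) (ht : orderOf t = 2)
    (hst : s * t = t * s) : s = t := by
  classical
  have : Fact (Nat.Prime 2) := ⟨Nat.prime_two⟩
  have hp : ∀ x : G, orderOf x = 2 → IsPGroup 2 (zpowers x) := fun x hx =>
    IsPGroup.of_card (n := 1) (by rw [Nat.card_zpowers, hx, pow_one])
  obtain ⟨P, hP⟩ := (hp z hzo).exists_le_sylow
  have hzP : z ∈ P := hP (mem_zpowers z)
  -- `z` is the only involution of `P`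
  have hPu : ∀ x ∈ P, orderOf x = 2 → x = z := by
    have hnt : Nontrivial P := ⟨⟨z, hzP⟩, 1, fun h => by
      have h2 : z = 1 := congrArg Subtype.val h
      rw [h2, orderOf_one] at hzo
      omega⟩
    have hc : Nontrivial (center P) := P.isPGroup'.center_nontrivial
    have hcp : IsPGroup 2 (center P) := P.isPGroup'.to_subgroup _
    obtain ⟨n, hn⟩ := hcp.exists_card_eq
    have hdvd : 2 ∣ Nat.card (center P) := by
      rw [hn]
      refine dvd_pow_self 2 ?_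
      rintro rfl
      rw [pow_zero] at hn
      have := Finite.one_lt_card (α := center P)
      omega
    obtain ⟨w, hw⟩ := exists_prime_orderOf_dvd_card' 2 hdvd
    have hwc : ∀ x ∈ P, x * ((w : P) : G) = ((w : P) : G) * x := fun x hx =>
      congrArg Subtype.val (Subgroup.mem_center_iff.1 w.2 ⟨x, hx⟩)
    have hwo : orderOf ((w : P) : G) = 2 := by
      rw [Subgroup.orderOf_coe, Subgroup.orderOf_coe]
      exact hw
    have hwz : ((w : P) : G) = z := h1 _ (hwc z hzP).symm hwo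
    intro x hx hxo
    refine h1 x ?_ hxo
    rw [← hwz]
    exact hwc x hx
  have hn : zpowers s ≤ normalizer ((zpowers t : Subgroup G) : Set G) := by
    rw [zpowers_le]
    rw [Subgroup.mem_normalizer_iff]
    intro x
    constructor
    · intro hx
      obtain ⟨k, rfl⟩ := mem_zpowers_iff.1 hx
      have : s * t ^ k * s⁻¹ = t ^ k := by
        rw [mul_inv_eq_iff_eq_mul]
        exact (Commute.zpow_right (show Commute s t from hst) k).eq
      rw [this]
      exact hx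
    · intro hx
      obtain ⟨k, hk⟩ := mem_zpowers_iff.1 hx
      have : x = t ^ k := by
        have h3 : t ^ k * s = s * x := by rw [hk]; group
        have h4 : s * t ^ k = t ^ k * s := (Commute.zpow_right (show Commute s t from hst) k).eq
        exact (mul_left_cancel (h4.trans h3)).symm
      rw [this]
      exact mem_zpowers_iff.2 ⟨k, rfl⟩
  have hsup : IsPGroup 2 (zpowers s ⊔ zpowers t : Subgroup G) := IsPGroup.to_sup_of_normal_right' (hp s hs) (hp t ht) hn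
  obtain ⟨Q, hQ⟩ := hsup.exists_le_sylow
  obtain ⟨g, hg⟩ := MulAction.exists_smul_eq G Q P
  have hmem : ∀ x ∈ Q, g * x * g⁻¹ ∈ P := by
    intro x hx
    rw [← hg]
    exact Subgroup.smul_mem_pointwise_smul x (MulAut.conj g) (Q : Subgroup G) hx
  have ho : ∀ x, orderOf x = 2 → orderOf (g * x * g⁻¹) = 2 := fun x hx => by
    rw [← hx]
    exact MulEquiv.orderOf_eq (MulAut.conj g) x
  have h3 := hPu _ (hmem s (hQ (le_sup_left (α := Subgroup G) (mem_zpowers s)))) (ho s hs)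
  have h4 := hPu _ (hmem t (hQ (le_sup_right (α := Subgroup G) (mem_zpowers t)))) (ho t ht)
  have h5 : g * s * g⁻¹ = g * t * g⁻¹ := h3.trans h4.symm
  exact mul_left_cancel (mul_right_cancel h5)

theorem sylow_uniq {G : Type*} [Group G] [Finite G] {A : Subgroup G} {z : G} (hz : z ∈ A) (hzo : orderOf z = 2)
    (h1 : ∀ s ∈ A, s * z = z * s → orderOf s = 2 → s = z) {s t : G} (hsA : s ∈ A) (htA : t ∈ A) (hs : orderOf s = 2)
    (ht : orderOf t = 2) (hst : s * t = t * s) : s = t := by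
  have key := sylow_uniq_top (G := A) (z := ⟨z, hz⟩) (by rw [Subgroup.orderOf_mk]; exact hzo)
    (fun s hs ho => Subtype.ext (h1 s s.2 (congrArg Subtype.val hs) (by rw [Subgroup.orderOf_coe]; exact ho)))
    (s := ⟨s, hsA⟩) (t := ⟨t, htA⟩) (by rw [Subgroup.orderOf_mk]; exact hs) (by rw [Subgroup.orderOf_mk]; exact ht)
    (Subtype.ext hst)
  exact congrArg Subtype.val key

section hex

variable {E : Type*} [Field E] [Fintype E] {L : Type*} [Group L] [Finite L] (c : HexGrp (RingEquiv.refl E) L)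

/-- the bound -/
def Bd (A : Subgroup L) : Prop :=
  A.relIndex (centralizer ({c.z} : Set L)) ^ 5 * {t : L | t ∈ A ∧ orderOf t = 2}.ncard <
    Fintype.card E ^ 4 * (Fintype.card E ^ 4 + Fintype.card E ^ 2 + 1)

theorem orderOf_two {G : Type*} [Group G] {t : G} : orderOf t = 2 ↔ t * t = 1 ∧ t ≠ 1 := by
  constructor
  · intro h
    refine ⟨by rw [← pow_two, ← h, pow_orderOf_eq_one], ?_⟩
    rintro rfl
    rw [orderOf_one] at h
    omega
  · rintro ⟨h1, h2⟩
    have : Fact (Nat.Prime 2) := ⟨Nat.prime_two⟩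
    exact orderOf_eq_prime (by rw [pow_two, h1]) h2

theorem z_ord (h2 : (2 : E) ≠ 0) : orderOf c.z = 2 := orderOf_two.2 ⟨c.z_sq, c.z_ne h2⟩

/-- **2-rank one** -/
theorem rank_one (h5 : 5 ≤ Fintype.card E) (hodd : Odd (Fintype.card E)) {p : ℕ} [Fact p.Prime] [CharP E p]
    (hcz : Nat.card (centralizer ({c.z} : Set L)) = Nat.card (SL2 E) * Nat.card (SL2 ↥(fx (RingEquiv.refl E))))
    (hO : OddSL E p) [Fintype ↥(fx (RingEquiv.refl E))] (hO' : OddSL ↥(fx (RingEquiv.refl E)) p)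
    {A : Subgroup L} (hb : Bd c A) (hK : (∀ x, c.pb x ∈ A) ∨ (∀ y, c.p4 y ∈ A))
    (h1 : ∀ s ∈ A, s * c.z = c.z * s → orderOf s = 2 → s = c.z) :
    IF.op p A ≠ ⊥ ∨ ∀ a ∈ A, a * c.z = c.z * a := by
  have h2 : (2 : E) ≠ 0 := H215.IFM.two_ne hodd
  have hcf : Fintype.card ↥(fx (RingEquiv.refl E)) = Fintype.card E := card_fx
  have hK' : c.K1 ≤ A ∨ c.K4 ≤ A := by
    rcases hK with h | h
    · left
      rintro _ ⟨x, rfl⟩
      exact h x
    · right
      rintro _ ⟨x, rfl⟩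
      exact h x
  have hform : ∀ g ∈ A, g * c.z = c.z * g → ∃ x y, g = c.pb x * c.p4 y := fun g hg hgz =>
    c.mem_L0 (c.no_outer h2 h1 hK' hg hgz)
  have hz1 : c.pb (-1) = c.z := by rw [neg_one_eq]; rfl
  have hz2 : c.p4 (-1) = c.z := by rw [neg_one_eq, HexGrp.z_eq_p4]
  have hcz' : (Fintype.card E * (Fintype.card E ^ 2 - 1)) * (Fintype.card E * (Fintype.card E ^ 2 - 1)) ≤
      Nat.card (centralizer ({c.z} : Set L)) := by
    rw [hcz, card_sl2, card_sl2, hcf]
  have : CharP ↥(fx (RingEquiv.refl E)) p := charP_of_injective_ringHom (f := (fxE (E := E)).symm.toRingHom) (fxE (E := E)).symm.injective p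
  rcases hK with h | h
  · exact rank_one_aux (q := Fintype.card E) rfl hcf h5 hodd c.pb c.p4 (c.pb_inj h2) c.p4_inj
      (fun x y => c.comm_pb_p4 x y) hz1 hz2 (c.z_ne h2)
      (fun g hg => by
        obtain ⟨y, hy⟩ := c.centralizer_K1 h2 hg
        exact ⟨y, hy.symm⟩)
      (fun g hg v => c.CZ_pb h2 hg v) hform h h1 hcz' hb hO'
  · exact rank_one_aux (q := Fintype.card E) (E₁ := ↥(fx (RingEquiv.refl E))) (E₂ := E) hcf rfl h5 hodd c.p4 c.pb
      c.p4_inj (c.pb_inj h2) (fun x y => (c.comm_pb_p4 y x).symm) hz2 hz1 (c.z_ne h2)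
      (fun g hg => by
        obtain ⟨y, hy⟩ := c.centralizer_K4 h2 hg
        exact ⟨y, hy.symm⟩)
      (fun g hg v => c.CZ_p4 h2 hg v)
      (fun g hg hgz => by
        obtain ⟨x, y, rfl⟩ := hform g hg hgz
        exact ⟨y, x, c.comm_pb_p4 x y⟩) h h1 hcz' hb hO

/-- what is needed from step C -/
def StepC : Prop :=
  ∀ A : Subgroup L, c.z ∈ A → (∃ s ∈ A, s * c.z = c.z * s ∧ orderOf s = 2 ∧ s ≠ c.z) → (c.K1 ≤ A ∨ c.K4 ≤ A) →
    Bd c A → c.K1 ≤ A ∧ c.K4 ≤ A

theorem mem_map_conj {A : Subgroup L} {g x : L} :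
    x ∈ A.map (MulAut.conj g⁻¹).toMonoidHom ↔ g * x * g⁻¹ ∈ A := by
  constructor
  · rintro ⟨y, hy, rfl⟩
    have : g * ((MulAut.conj g⁻¹).toMonoidHom y) * g⁻¹ = y := by
      change g * (g⁻¹ * y * g⁻¹⁻¹) * g⁻¹ = y
      group
    rw [this]
    exact hy
  · intro h
    refine ⟨_, h, ?_⟩
    change g⁻¹ * (g * x * g⁻¹) * g⁻¹⁻¹ = x
    group

theorem killE_hex [IsSimpleGroup L] (hna : ∃ a b : L, a * b ≠ b * a) (h5 : 5 ≤ Fintype.card E)
    (hodd : Odd (Fintype.card E)) {p : ℕ} [Fact p.Prime] [CharP E p]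
    (hcz : Nat.card (centralizer ({c.z} : Set L)) = Nat.card (SL2 E) * Nat.card (SL2 ↥(fx (RingEquiv.refl E))))
    (hidx : (centralizer ({c.z} : Set L)).index =
      Fintype.card E ^ 4 * (Fintype.card E ^ 4 + Fintype.card E ^ 2 + 1))
    (hop : ∀ (A : Subgroup L) (Γ : Subgroup (MulAut L)), IF A Γ → IF.op p A ≠ ⊥ →
      ∃ s ∈ A, ∃ t ∈ A, s ≠ t ∧ s * t = t * s ∧ orderOf s = 2 ∧ orderOf t = 2)
    (hO : OddSL E p) [Fintype ↥(fx (RingEquiv.refl E))] (hO' : OddSL ↥(fx (RingEquiv.refl E)) p) (hC : StepC c) :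
    KillE L := by
  rintro A Γ h ⟨t0, ht0A, ht0⟩
  have h2 : (2 : E) ≠ 0 := H215.IFM.two_ne hodd
  have hzo := z_ord c h2
  have hconj : ∀ t : L, orderOf t = 2 → ∃ g, g * c.z * g⁻¹ = t := fun t ht => by
    obtain ⟨h3, h4⟩ := orderOf_two.1 ht
    exact isConj_iff.1 (c.isConj_invol h2 c.z_sq (c.z_ne h2) h3 h4)
  have hord : ∀ g x : L, orderOf (g * x * g⁻¹) = orderOf x := fun g x => MulEquiv.orderOf_eq (MulAut.conj g) x
  have bd : ∀ (A : Subgroup L) (Γ : Subgroup (MulAut L)), IF A Γ → c.z ∈ A → Bd c A := by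
    intro A Γ h hz
    have h3 := card_invol h hna hz hzo (B := centralizer {c.z}) le_rfl
    rw [hidx] at h3
    have h4 : {t : L | t ∈ A ∧ ∃ x : L, x * c.z * x⁻¹ = t} = {t : L | t ∈ A ∧ orderOf t = 2} := by
      ext t
      constructor
      · rintro ⟨ht, x, rfl⟩
        exact ⟨ht, by rw [hord, hzo]⟩
      · rintro ⟨ht, ho⟩
        exact ⟨ht, hconj t ho⟩
    rw [h4] at h3
    exact h3
  have st1 : ∀ A : Subgroup L, c.z ∈ A → Bd c A → (∀ x, c.pb x ∈ A) ∨ (∀ y, c.p4 y ∈ A) := by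
    intro A hz hb
    refine step1 c h5 hodd (lt_of_le_of_lt ?_ hb)
    refine Nat.le_mul_of_pos_right _ ?_
    rw [Set.ncard_pos]
    exact ⟨c.z, hz, hzo⟩
  by_cases hR : ∀ t ∈ A, orderOf t = 2 → ∃ s ∈ A, s * t = t * s ∧ orderOf s = 2 ∧ s ≠ t
  · obtain ⟨h3, h4⟩ := orderOf_two.1 ht0
    refine h.ne_top (c.gen_all h2 ⟨t0, ht0A, h3, h4⟩ fun g hg x hx => ?_)
    obtain ⟨s, hsA, hsc, hso, hsn⟩ := hR _ hg (by rw [hord, hzo])
    have h' := h.map (MulAut.conj g⁻¹)
    have hz' : c.z ∈ A.map (MulAut.conj g⁻¹).toMonoidHom := mem_map_conj.2 hg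
    have hb := bd _ _ h' hz'
    have hK : c.K1 ≤ A.map (MulAut.conj g⁻¹).toMonoidHom ∨ c.K4 ≤ A.map (MulAut.conj g⁻¹).toMonoidHom := by
      rcases st1 _ hz' hb with h6 | h6
      · left
        rintro _ ⟨x, rfl⟩
        exact h6 x
      · right
        rintro _ ⟨x, rfl⟩
        exact h6 x
    have hse : g * (g⁻¹ * s * g) * g⁻¹ = s := by group
    obtain ⟨h6, h7⟩ := hC _ hz' ⟨g⁻¹ * s * g, mem_map_conj.2 (by rw [hse]; exact hsA), by
      have h8 : s * (g * c.z * g⁻¹) = g * c.z * g⁻¹ * s := hsc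
      calc g⁻¹ * s * g * c.z = g⁻¹ * (s * (g * c.z * g⁻¹)) * g := by group
        _ = g⁻¹ * (g * c.z * g⁻¹ * s) * g := by rw [h8]
        _ = c.z * (g⁻¹ * s * g) := by group, by
      have h8 := hord g (g⁻¹ * s * g)
      rw [hse] at h8
      rw [← h8, hso], fun h8 => hsn (by rw [← h8]; exact hse.symm)⟩ hK hb
    exact mem_map_conj.1 ((sup_le h6 h7 : c.L0 ≤ _) hx)
  · push Not at hR
    obtain ⟨t, htA, hto, ht⟩ := hR
    obtain ⟨g, rfl⟩ := hconj t hto
    have h' := h.map (MulAut.conj g⁻¹)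
    have hz' : c.z ∈ A.map (MulAut.conj g⁻¹).toMonoidHom := mem_map_conj.2 htA
    have hb := bd _ _ h' hz'
    have h1 : ∀ s ∈ A.map (MulAut.conj g⁻¹).toMonoidHom, s * c.z = c.z * s → orderOf s = 2 → s = c.z := by
      intro s hs hsz hso
      have h3 := ht _ (mem_map_conj.1 hs) (by
        calc g * s * g⁻¹ * (g * c.z * g⁻¹) = g * (s * c.z) * g⁻¹ := by group
          _ = g * (c.z * s) * g⁻¹ := by rw [hsz]
          _ = _ := by group) (by rw [hord, hso])
      exact mul_left_cancel (mul_right_cancel h3)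
    rcases rank_one c h5 hodd hcz hO hO' hb (st1 _ hz' hb) h1 with h3 | h3
    · obtain ⟨s, hs, t, ht, hst, hc', hso, hto'⟩ := hop _ _ h' h3
      exact hst (sylow_uniq hz' hzo h1 hs ht hso hto' hc')
    · have h4 := cent_le h' hz' hzo fun t ht hto' => h1 t ht (h3 t ht) hto'
      have h6 : c.z0 ∈ A.map (MulAut.conj g⁻¹).toMonoidHom := h4 (mem_centralizer_singleton_iff.2 c.z0_z)
      exact c.z0_ne_z h2 (h1 _ h6 c.z0_z (orderOf_two.2 ⟨c.z0_sq, c.z0_ne_one h2⟩))

end hex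

end Cfsg.Agent.H132.IFG
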