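import Cfsg.Agent.H132.IFG.StepA
import Cfsg.Agent.H132.IF.Parab
import Cfsg.Agent.H917.IFG.OpP
import Cfsg.Agent.H917.IFG.NoOuter

/-!
# S5719, cell `g2`, `q` odd: 2-rank one
-/

set_option autoImplicit false
set_option linter.unusedSectionVars false

namespace Cfsg.Agent.H132.IFG

open Subgroup Cfsg Cfsg.Agent.H215.IFM
open Cfsg.Agent.Cit.HexBase Cfsg.Agent.Lib.SL2Mat

/-! ### numerics -/

theorem num1 {q m : ℕ} (hq : 5 ≤ q) (h : 2 * (q * (q ^ 2 - 1)) ≤ m * (q + 1)) :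
    q ^ 4 * (q ^ 4 + q ^ 2 + 1) ≤ m ^ 5 := by
  obtain ⟨k, rfl⟩ : ∃ k, q = k + 5 := ⟨q - 5, by omega⟩
  have e : (k + 5) ^ 2 - 1 = (k + 4) * (k + 6) := by
    have : (k + 5) ^ 2 = (k + 4) * (k + 6) + 1 := by ring
    omega
  rw [e] at h
  have h1 : 2 * ((k + 5) * (k + 4)) ≤ m := by
    refine Nat.le_of_mul_le_mul_right (c := k + 5 + 1) ?_ (by omega)
    calc 2 * ((k + 5) * (k + 4)) * (k + 5 + 1) = 2 * ((k + 5) * ((k + 4) * (k + 6))) := by ring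
      _ ≤ _ := h
  have h3 : (k + 5) ^ 2 ≤ m := by
    refine le_trans ?_ h1
    nlinarith
  have h4 : ((k + 5) ^ 2) ^ 5 ≤ m ^ 5 := Nat.pow_le_pow_left h3 5
  refine le_trans ?_ h4
  have h5 : (k + 5) ^ 4 + (k + 5) ^ 2 + 1 ≤ (k + 5) ^ 6 := by
    have h6 : 25 ≤ (k + 5) ^ 2 := by nlinarith
    have h7 : (k + 5) ^ 4 = (k + 5) ^ 2 * (k + 5) ^ 2 := by ring
    have h8 : (k + 5) ^ 6 = (k + 5) ^ 2 * ((k + 5) ^ 2 * (k + 5) ^ 2) := by ring
    rw [h7, h8]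
    generalize (k + 5) ^ 2 = a at h6
    nlinarith
  calc (k + 5) ^ 4 * ((k + 5) ^ 4 + (k + 5) ^ 2 + 1) ≤ (k + 5) ^ 4 * (k + 5) ^ 6 := Nat.mul_le_mul_left _ h5
    _ = _ := by ring

theorem cube_le (k : ℕ) : (2 * (k + 2) + 1) ^ 3 ≤ 32 * 3 ^ (k + 2) := by
  induction k with
  | zero => norm_num
  | succ k ih =>
    have h1 : 3 ^ (k + 1 + 2) = 3 * 3 ^ (k + 2) := by ring
    have h2 : (2 * (k + 1 + 2) + 1) ^ 3 ≤ 3 * (2 * (k + 2) + 1) ^ 3 := by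
      have e : 3 * (2 * (k + 2) + 1) ^ 3 = (2 * (k + 1 + 2) + 1) ^ 3 + (16 * k ^ 3 + 96 * k ^ 2 + 156 * k + 32) := by ring
      omega
    omega

theorem num2 {q : ℕ} (hq : 5 ≤ q) (hodd : Odd q) :
    q ^ 4 * (q ^ 4 + q ^ 2 + 1) ≤ 32 * (q + 1) ^ 5 * 3 ^ ((q - 1) / 2) := by
  obtain ⟨k, rfl⟩ := hodd
  obtain ⟨j, rfl⟩ : ∃ j, k = j + 2 := ⟨k - 2, by omega⟩
  have h1 : (2 * (j + 2) + 1 - 1) / 2 = j + 2 := by omega
  rw [h1]
  have h2 := cube_le j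
  obtain ⟨q, hq'⟩ : ∃ q, q = 2 * (j + 2) + 1 := ⟨_, rfl⟩
  rw [← hq'] at h2 ⊢
  have h3 : q ^ 4 * (q ^ 4 + q ^ 2 + 1) ≤ (q + 1) ^ 5 * q ^ 3 := by
    have e : (q + 1) ^ 5 * q ^ 3 = q ^ 4 * (q ^ 4 + q ^ 2 + 1) + (5 * q ^ 7 + 9 * q ^ 6 + 10 * q ^ 5 + 4 * q ^ 4 + q ^ 3) := by
      ring
    omega
  calc q ^ 4 * (q ^ 4 + q ^ 2 + 1) ≤ (q + 1) ^ 5 * q ^ 3 := h3
    _ ≤ (q + 1) ^ 5 * (32 * 3 ^ (j + 2)) := Nat.mul_le_mul_left _ h2
    _ = _ := by ring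

theorem num3 {q m i : ℕ} (hq : 5 ≤ q) (hodd : Odd q) (h : 2 * (q * (q ^ 2 - 1)) ≤ m * (q * (q - 1)))
    (hb : m ^ 5 * i < q ^ 4 * (q ^ 4 + q ^ 2 + 1)) : i < 3 ^ ((q - 1) / 2) := by
  have h1 : 2 * (q + 1) ≤ m := by
    obtain ⟨k, rfl⟩ : ∃ k, q = k + 5 := ⟨q - 5, by omega⟩
    have e : (k + 5) ^ 2 - 1 = (k + 4) * (k + 6) := by
      have : (k + 5) ^ 2 = (k + 4) * (k + 6) + 1 := by ring
      omega
    have e2 : k + 5 - 1 = k + 4 := by omega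
    rw [e, e2] at h
    refine Nat.le_of_mul_le_mul_right (c := (k + 5) * (k + 4)) ?_ (by positivity)
    calc 2 * (k + 5 + 1) * ((k + 5) * (k + 4)) = 2 * ((k + 5) * ((k + 4) * (k + 6))) := by ring
      _ ≤ _ := h
  by_contra hcon
  push Not at hcon
  have h2 := num2 hq hodd
  have h3 : (2 * (q + 1)) ^ 5 ≤ m ^ 5 := Nat.pow_le_pow_left h1 5
  have h4 : 32 * (q + 1) ^ 5 * 3 ^ ((q - 1) / 2) ≤ m ^ 5 * i := by
    refine Nat.mul_le_mul ?_ hcon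
    calc 32 * (q + 1) ^ 5 = (2 * (q + 1)) ^ 5 := by ring
      _ ≤ _ := h3
  omega

/-! ### the rank one lemma -/

/-- what is needed on subgroups of `SL₂(q)` -/
def OddSL (K : Type*) [Field K] [Fintype K] (p : ℕ) : Prop :=
  ∀ Y : Subgroup (SL2 K), -1 ∈ Y → (∀ w ∈ Y, w * w ≠ -1) → Fintype.card K + 1 < Nat.card Y →
    Nat.card Y ≤ Fintype.card K * (Fintype.card K - 1) ∧
    ∀ r : ℕ, r.Prime → r ≠ 2 → r ≠ p → ∀ D : Subgroup (SL2 K), D ≤ Y → IsPGroup r D →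
      (∀ y ∈ Y, ∀ x ∈ D, y * x * y⁻¹ ∈ D) → D = ⊥

theorem neg_one_eq {K : Type*} [Field K] : (-1 : SL2 K) = dg (-1) (neg_ne_zero.2 one_ne_zero) := by
  refine ext_ent ?_ ?_ ?_ ?_
  · show (-(1 : Matrix (Fin 2) (Fin 2) K)) 0 0 = -1
    simp
  · show (-(1 : Matrix (Fin 2) (Fin 2) K)) 0 1 = 0
    simp
  · show (-(1 : Matrix (Fin 2) (Fin 2) K)) 1 0 = 0
    simp
  · show (-(1 : Matrix (Fin 2) (Fin 2) K)) 1 1 = (-1)⁻¹
    simp [inv_neg]

theorem wm_sq {K : Type*} [Field K] : (wm (1 : K) one_ne_zero) * wm 1 one_ne_zero = -1 := by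
  rw [neg_one_eq]
  refine ext_ent ?_ ?_ ?_ ?_ <;> simp [ent_mul, inv_neg]

theorem wm_not_central {K : Type*} [Field K] (h : ∀ x : SL2 K, wm (1 : K) one_ne_zero * x = x * wm 1 one_ne_zero) :
    False := by
  have h1 := congrArg (fun m : SL2 K => ent m 0 0) (h (up 1))
  simp [ent_mul] at h1

section aux

variable {E₁ E₂ : Type*} [Field E₁] [Fintype E₁] [Field E₂] [Fintype E₂] {L : Type*} [Group L] [Finite L]

theorem rank_one_aux {q p : ℕ} [Fact p.Prime] [CharP E₁ p] (hq1 : Fintype.card E₁ = q) (hq2 : Fintype.card E₂ = q)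
    (h5 : 5 ≤ q) (hodd : Odd q) (ρ : SL2 E₁ →* L) (τ : SL2 E₂ →* L) (hρ : Function.Injective ρ)
    (hτ : Function.Injective τ) (hcomm : ∀ x y, ρ x * τ y = τ y * ρ x) {z : L} (hz1 : ρ (-1) = z) (hz2 : τ (-1) = z)
    (hz : z ≠ 1) (hcent : ∀ g, (∀ x, g * ρ x = ρ x * g) → ∃ y, g = τ y)
    (hn : ∀ g, g * z = z * g → ∀ v, ∃ v', g * ρ v * g⁻¹ = ρ v')
    {A : Subgroup L} (hform : ∀ g ∈ A, g * z = z * g → ∃ x y, g = ρ x * τ y) (hρA : ∀ x, ρ x ∈ A)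
    (h1 : ∀ s ∈ A, s * z = z * s → orderOf s = 2 → s = z)
    (hcz : (q * (q ^ 2 - 1)) * (q * (q ^ 2 - 1)) ≤ Nat.card (centralizer ({z} : Set L)))
    (hb : A.relIndex (centralizer ({z} : Set L)) ^ 5 * {t : L | t ∈ A ∧ orderOf t = 2}.ncard <
      q ^ 4 * (q ^ 4 + q ^ 2 + 1)) (hO : OddSL E₂ p) :
    IF.op p A ≠ ⊥ ∨ ∀ a ∈ A, a * z = z * a := by
  classical
  have h2 : (2 : E₁) ≠ 0 := H215.IFM.two_ne (by rw [hq1]; exact hodd)
  have hzA : z ∈ A := hz1 ▸ hρA _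
  have hzz : z * z = 1 := by rw [← hz1, ← map_mul, neg_mul_neg, one_mul, map_one]
  have hzo : orderOf z = 2 := by
    have : Fact (Nat.Prime 2) := ⟨Nat.prime_two⟩
    exact orderOf_eq_prime (by rw [pow_two, hzz]) hz
  have hτz : ∀ y, τ y * z = z * τ y := fun y => by
    rw [← hz1, hcomm]
  obtain ⟨Y, hY⟩ : ∃ Y, Y = A.comap τ := ⟨_, rfl⟩
  have hYmem : ∀ y, y ∈ Y ↔ τ y ∈ A := fun y => by rw [hY]; rfl
  have hY1 : (-1 : SL2 E₂) ∈ Y := by rw [hYmem, hz2]; exact hzA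
  have hYw : ∀ w ∈ Y, w * w ≠ -1 := by
    intro w hw hww
    have hwA := (hYmem w).1 hw
    obtain ⟨s, hs⟩ : ∃ s, s = ρ (wm 1 one_ne_zero) * τ w := ⟨_, rfl⟩
    have hsA : s ∈ A := hs ▸ mul_mem (hρA _) hwA
    have hsz : s * z = z * s := by
      rw [hs, mul_assoc, hτz, ← mul_assoc, ← mul_assoc, ← hz2, hcomm]
    have hss : s * s = 1 := by
      rw [hs]
      calc ρ (wm 1 one_ne_zero) * τ w * (ρ (wm 1 one_ne_zero) * τ w)
          = ρ (wm 1 one_ne_zero) * (τ w * ρ (wm 1 one_ne_zero)) * τ w := by group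
        _ = ρ (wm 1 one_ne_zero) * (ρ (wm 1 one_ne_zero) * τ w) * τ w := by rw [← hcomm]
        _ = ρ (wm 1 one_ne_zero * wm 1 one_ne_zero) * τ (w * w) := by rw [map_mul, map_mul]; group
        _ = 1 := by rw [wm_sq, hww, hz1, hz2, hzz]
    have hcen : ∀ u : L, (∀ x, u * ρ x = ρ x * u) → s ≠ u := by
      intro u hu hsu
      refine wm_not_central (K := E₁) fun x => hρ ?_
      have e : ρ (wm 1 one_ne_zero) = u * (τ w)⁻¹ := by rw [← hsu, hs]; group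
      have e2 : (τ w)⁻¹ * ρ x = ρ x * (τ w)⁻¹ := by
        rw [inv_mul_eq_iff_eq_mul, ← mul_assoc, ← hcomm, mul_assoc, mul_inv_cancel, mul_one]
      rw [map_mul, map_mul, e, mul_assoc, e2, ← mul_assoc, hu, mul_assoc]
    have hs1 : s ≠ 1 := hcen 1 fun x => by rw [one_mul, mul_one]
    have hso : orderOf s = 2 := by
      have : Fact (Nat.Prime 2) := ⟨Nat.prime_two⟩
      exact orderOf_eq_prime (by rw [pow_two, hss]) hs1
    exact hcen z (fun x => by rw [← hz2, hcomm]) (h1 s hsA hsz hso)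
  -- the order of `C_A(z)`
  have hcard : 2 * (q * (q ^ 2 - 1)) ≤ A.relIndex (centralizer ({z} : Set L)) * Nat.card Y := by
    obtain ⟨m, hm⟩ : ∃ m, m = A.relIndex (centralizer ({z} : Set L)) := ⟨_, rfl⟩
    let ψ : SL2 E₁ × Y →* L := MonoidHom.noncommCoprod ρ (τ.comp Y.subtype) fun x y => hcomm x y
    have hψ : ∀ x y, ψ (x, y) = ρ x * τ y := fun x y => rfl
    have hle : A ⊓ centralizer ({z} : Set L) ≤ ψ.range := by
      rintro g ⟨hg, hgz⟩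
      obtain ⟨x, y, rfl⟩ := hform g hg (mem_centralizer_singleton_iff.1 hgz)
      have hy : y ∈ Y := by
        rw [hYmem]
        have := mul_mem (inv_mem (hρA x)) hg
        rwa [inv_mul_cancel_left] at this
      exact ⟨(x, ⟨y, hy⟩), rfl⟩
    have hker : 2 ≤ Nat.card ψ.ker := by
      have h3 : ((-1 : SL2 E₁), (⟨-1, hY1⟩ : Y)) ∈ ψ.ker := by
        rw [MonoidHom.mem_ker, hψ, hz1]
        change z * τ (-1) = 1
        rw [hz2, hzz]
      have h4 : Nontrivial ψ.ker := ⟨⟨_, h3⟩, 1, fun h => by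
        have h5 := congrArg (fun x : ψ.ker => (x : SL2 E₁ × Y).1) h
        exact H215.IFM.neg_one_ne h2 h5⟩
      exact Finite.one_lt_card
    have hc1 : Nat.card ψ.ker * Nat.card ψ.range = Nat.card (SL2 E₁) * Nat.card Y := by
      rw [← Subgroup.index_ker, Subgroup.card_mul_index, Nat.card_prod]
    have hc2 : Nat.card (A ⊓ centralizer ({z} : Set L) : Subgroup L) ≤ Nat.card ψ.range :=
      Nat.card_le_card_of_injective _ (Subgroup.inclusion_injective hle)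
    have hc3 : Nat.card (A ⊓ centralizer ({z} : Set L) : Subgroup L) * m = Nat.card (centralizer ({z} : Set L)) := by
      have h3 := (A.subgroupOf (centralizer ({z} : Set L))).card_mul_index
      have h4 : Nat.card (A.subgroupOf (centralizer ({z} : Set L))) =
          Nat.card (A ⊓ centralizer ({z} : Set L) : Subgroup L) := by
        rw [← Subgroup.inf_subgroupOf_right]
        exact Nat.card_congr (Subgroup.subgroupOfEquivOfLe inf_le_right).toEquiv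
      rw [h4] at h3
      rw [hm]
      exact h3
    have hs : Nat.card (SL2 E₁) = q * (q ^ 2 - 1) := by rw [← hq1]; exact H215.IFM.card_sl2
    rw [← hm]
    obtain ⟨S, hS⟩ : ∃ S, S = q * (q ^ 2 - 1) := ⟨_, rfl⟩
    rw [hs, ← hS] at hc1
    rw [← hS] at hcz ⊢
    have hS0 : 0 < S := by
      rw [hS]
      have : 25 ≤ q ^ 2 := by nlinarith
      have : 0 < q ^ 2 - 1 := by omega
      positivity
    -- 2 S² ≤ 2 |C| = 2 |A∩C| m ≤ S |Y| m
    have h6 : 2 * Nat.card (A ⊓ centralizer ({z} : Set L) : Subgroup L) ≤ S * Nat.card Y := by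
      rw [← hc1]
      exact Nat.mul_le_mul hker hc2
    refine Nat.le_of_mul_le_mul_left (c := S) ?_ hS0
    calc S * (2 * S) = 2 * (S * S) := by ring
      _ ≤ 2 * Nat.card (centralizer ({z} : Set L)) := Nat.mul_le_mul_left _ hcz
      _ = 2 * Nat.card (A ⊓ centralizer ({z} : Set L) : Subgroup L) * m := by rw [← hc3]; ring
      _ ≤ S * Nat.card Y * m := Nat.mul_le_mul_right _ h6
      _ = S * (m * Nat.card Y) := by ring
  have hi0 : 0 < {t : L | t ∈ A ∧ orderOf t = 2}.ncard := by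
    rw [Set.ncard_pos]
    exact ⟨z, hzA, hzo⟩
  have hYbig : Fintype.card E₂ + 1 < Nat.card Y := by
    rw [hq2]
    by_contra hcon
    push Not at hcon
    have h3 := num1 h5 (hcard.trans (Nat.mul_le_mul_left _ hcon))
    have h4 : A.relIndex (centralizer ({z} : Set L)) ^ 5 ≤
        A.relIndex (centralizer ({z} : Set L)) ^ 5 * {t : L | t ∈ A ∧ orderOf t = 2}.ncard :=
      Nat.le_mul_of_pos_right _ hi0
    omega
  obtain ⟨hY2, hY3⟩ := hO Y hY1 hYw hYbig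
  rw [hq2] at hY2
  have hi := num3 h5 hodd (hcard.trans (Nat.mul_le_mul_left _ hY2)) hb
  rcases H917.IFG.exists_pGroup hzA hzo h1 (p := p) h2 ρ hρ hρA hn ⟨_, hz1⟩ (fun r hr hr2 hrp D hDA hDz hDr hDρ hDn => by
    have h3 : D.comap τ = ⊥ := by
      refine hY3 r hr hr2 hrp _ (fun x hx => (hYmem x).2 (hDA hx)) (hDr.comap_of_injective τ hτ) ?_
      intro y hy x hx
      change τ (y * x * y⁻¹) ∈ D
      rw [map_mul, map_mul, map_inv]
      exact hDn _ ((hYmem y).1 hy) (hτz y) _ hx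
    rw [Subgroup.eq_bot_iff_forall] at h3 ⊢
    intro d hd
    obtain ⟨y, rfl⟩ := hcent d (hDρ d hd)
    rw [h3 y hd, map_one]) (by rw [hq1]; exact hi) with ⟨R, hRA, hR1, hRp, hRn⟩ | h
  · left
    intro h3
    have h4 := IF.le_op hRp hRA hRn
    rw [h3, le_bot_iff] at h4
    exact hR1 h4
  · exact Or.inr h

end aux

end Cfsg.Agent.H132.IFG
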