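import Cfsg.Agent.H215.IFM.Pure
import Cfsg.Agent.H215.IFM.SLTwo
import Cfsg.Agent.H917.IFG.Gen

/-!
# S5719, cell `g2`, `q` odd, step 1: `K 1 ≤ A` or `K 4 ≤ A`
-/

set_option autoImplicit false
set_option linter.unusedSectionVars false

namespace Cfsg.Agent.H132.IFG

open Subgroup Cfsg Cfsg.Agent.H16.BR Cfsg.Agent.H215.IFM
open Cfsg.Agent.Cit.HexBase Cfsg.Agent.Lib.SL2Mat

theorem idx_of_dvd {G : Type*} [Group G] [Finite G] (hG : IsQuasisimple G) {B : ℕ}
    (hB : ¬ Nat.card (G ⧸ center G) ∣ B.factorial) {M : Subgroup G} (hM : M ≠ ⊤) : B < M.index := by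
  refine idx_of_quot hG (fun H hH => ?_) hM
  have hs : IsSimpleGroup (G ⧸ center G) := hG.2
  by_contra hlt
  push Not at hlt
  have h1 : Function.Injective (MulAction.toPermHom (G ⧸ center G) ((G ⧸ center G) ⧸ H)) := by
    rw [← MonoidHom.ker_eq_bot_iff, ← Subgroup.normalCore_eq_ker]
    rcases hs.eq_bot_or_eq_top_of_normal H.normalCore inferInstance with h | h
    · exact h
    · exact absurd (top_le_iff.1 (h ▸ Subgroup.normalCore_le H)) hH
  have h2 := Subgroup.card_dvd_of_injective _ h1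
  have : Fintype ((G ⧸ center G) ⧸ H) := Fintype.ofFinite _
  rw [Nat.card_perm] at h2
  exact hB (h2.trans (Nat.factorial_dvd_factorial hlt))

/-- a lower bound for the indices of proper subgroups of `SL₂(q)` -/
def mq (q : ℕ) : ℕ := if 12 ≤ q then q + 1 else if q = 9 then 6 else q

theorem min_mq {F : Type*} [Field F] [Fintype F] (h5 : 5 ≤ Fintype.card F) (hodd : Odd (Fintype.card F))
    (R : Subgroup (Matrix.SpecialLinearGroup (Fin 2) F)) (hR : R ≠ ⊤) : mq (Fintype.card F) ≤ R.index := by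
  by_cases h12 : 12 ≤ Fintype.card F
  · rw [mq, if_pos h12]
    exact idx_sl_two h12 hR
  have hc := card_psl2 (H215.IFM.two_ne hodd)
  have key : ∀ B : ℕ, ¬ Nat.card (Matrix.ProjectiveSpecialLinearGroup (Fin 2) F) ∣ B.factorial → B + 1 ≤ R.index :=
    fun B hB => idx_of_dvd (quasi_sl_two (by omega)) hB hR
  have h6 : Fintype.card F = 5 ∨ Fintype.card F = 7 ∨ Fintype.card F = 9 ∨ Fintype.card F = 11 := by
    obtain ⟨k, hk⟩ := hodd
    omega
  rcases h6 with h6 | h6 | h6 | h6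
  · rw [h6] at hc ⊢
    refine key 4 ?_
    have : Nat.card (Matrix.ProjectiveSpecialLinearGroup (Fin 2) F) = 60 := by omega
    rw [this]
    norm_num [Nat.factorial]
  · rw [h6] at hc ⊢
    refine key 6 ?_
    have : Nat.card (Matrix.ProjectiveSpecialLinearGroup (Fin 2) F) = 168 := by omega
    rw [this]
    norm_num [Nat.factorial]
  · rw [h6] at hc ⊢
    refine key 5 ?_
    have : Nat.card (Matrix.ProjectiveSpecialLinearGroup (Fin 2) F) = 360 := by omega
    rw [this]
    norm_num [Nat.factorial]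
  · rw [h6] at hc ⊢
    refine key 10 ?_
    have : Nat.card (Matrix.ProjectiveSpecialLinearGroup (Fin 2) F) = 660 := by omega
    rw [this]
    norm_num [Nat.factorial]

theorem mq_num {q : ℕ} (h5 : 5 ≤ q) (hodd : Odd q) :
    q ^ 4 * (q ^ 4 + q ^ 2 + 1) ≤ (mq q * mq q) ^ 5 ∧ 2 * (mq q * mq q) ≤ q * (q ^ 2 - 1) := by
  by_cases h12 : 12 ≤ q
  · rw [mq, if_pos h12]
    constructor
    · have e : ((q + 1) * (q + 1)) ^ 5 = q ^ 4 * (q ^ 4 + q ^ 2 + 1) + (q ^ 10 + 10 * q ^ 9 + 44 * q ^ 8 +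
          120 * q ^ 7 + 209 * q ^ 6 + 252 * q ^ 5 + 209 * q ^ 4 + 120 * q ^ 3 + 45 * q ^ 2 + 10 * q + 1) := by ring
      omega
    · obtain ⟨k, rfl⟩ : ∃ k, q = k + 12 := ⟨q - 12, by omega⟩
      have e : (k + 12) ^ 2 - 1 = k ^ 2 + 24 * k + 143 := by
        have : (k + 12) ^ 2 = k ^ 2 + 24 * k + 143 + 1 := by ring
        omega
      rw [e]
      nlinarith
  have h6 : q = 5 ∨ q = 7 ∨ q = 9 ∨ q = 11 := by
    obtain ⟨k, hk⟩ := hodd
    omega
  rcases h6 with rfl | rfl | rfl | rfl <;> norm_num [mq]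

section hex

variable {E : Type*} [Field E] {L : Type*} [Group L] (c : HexGrp (RingEquiv.refl E) L)

/-- the fixed field of the identity -/
def fxE : ↥(fx (RingEquiv.refl E)) ≃+* E where
  toFun x := x
  invFun x := ⟨x, rfl⟩
  left_inv _ := rfl
  right_inv _ := rfl
  map_mul' _ _ := rfl
  map_add' _ _ := rfl

theorem card_fx [Fintype E] [Fintype ↥(fx (RingEquiv.refl E))] :
    Fintype.card ↥(fx (RingEquiv.refl E)) = Fintype.card E := Fintype.card_congr fxE.toEquiv

/-- `SL₂ × SL₂ → K 1 K 4` -/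
def ph : SL2 E × SL2 ↥(fx (RingEquiv.refl E)) →* L :=
  MonoidHom.noncommCoprod c.pb c.p4 fun x y => c.comm_pb_p4 x y

theorem ph_apply (x : SL2 E) (y : SL2 ↥(fx (RingEquiv.refl E))) : ph c (x, y) = c.pb x * c.p4 y := rfl

theorem ph_range_le : (ph c).range ≤ centralizer {c.z} := by
  rintro _ ⟨⟨x, y⟩, rfl⟩
  rw [mem_centralizer_singleton_iff, ph_apply]
  rw [mul_assoc, ← c.z_p4 y, ← mul_assoc, ← c.z_pb x, mul_assoc]

/-- **Step 1** -/
theorem step1 [Fintype E] [Finite L] (h5 : 5 ≤ Fintype.card E) (hodd : Odd (Fintype.card E)) {A : Subgroup L}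
    (hb : A.relIndex (centralizer {c.z}) ^ 5 < Fintype.card E ^ 4 * (Fintype.card E ^ 4 + Fintype.card E ^ 2 + 1)) :
    (∀ x, c.pb x ∈ A) ∨ (∀ y, c.p4 y ∈ A) := by
  classical
  have : Fintype ↥(fx (RingEquiv.refl E)) := Fintype.ofFinite _
  have hcf : Fintype.card ↥(fx (RingEquiv.refl E)) = Fintype.card E := card_fx
  obtain ⟨hn1, hn2⟩ := mq_num h5 hodd
  by_contra hcon
  push Not at hcon
  obtain ⟨⟨x, hx⟩, ⟨y, hy⟩⟩ := hcon
  have h1 := two_factors (m := mq (Fintype.card E)) (c := mq (Fintype.card E) * mq (Fintype.card E))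
    (b := mq (Fintype.card E) * mq (Fintype.card E)) (min_mq h5 hodd)
    (fun R hR => by
      have := min_mq (F := ↥(fx (RingEquiv.refl E))) (by rwa [hcf]) (by rwa [hcf]) R hR
      rwa [hcf] at this)
    (fun N hN hne => by
      have := norm_sl2 (F := ↥(fx (RingEquiv.refl E))) (by rwa [hcf]) (by rwa [hcf]) N hN hne
      rw [hcf] at this
      omega) (A.comap (ph c)) le_rfl le_rfl
    (fun h => hx (by
      have h1 : x ∈ (A.comap (ph c)).comap (MonoidHom.inl _ _) := by rw [h]; exact mem_top _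
      have h2 : ph c (x, 1) ∈ A := h1
      rwa [ph_apply, map_one, mul_one] at h2))
    (fun h => hy (by
      have h1 : y ∈ (A.comap (ph c)).comap (MonoidHom.inr _ _) := by rw [h]; exact mem_top _
      have h2 : ph c (1, y) ∈ A := h1
      rwa [ph_apply, map_one, one_mul] at h2))
  rw [Subgroup.index_comap] at h1
  have h2 : A.relIndex (ph c).range ≤ A.relIndex (centralizer {c.z}) :=
    Subgroup.relIndex_le_of_le_right (ph_range_le c) Subgroup.index_ne_zero_of_finite
  have h3 := Nat.pow_le_pow_left (h1.trans h2) 5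
  omega

end hex

end Cfsg.Agent.H132.IFG
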